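import Cfsg.Agent.H671.Frame

/-!
# Almost simple groups from two non-adjacent primes (helper92, S2499)

* `NilFix` (S4319), `Gross` (S1942): the hypotheses;
* `exists_soc` : a finite group `M` without solvable normal subgroups, with elements of prime orders `r ≠ r'` with
  commutative centralizers, the primes `r`, `r'` not adjacent, has a simple normal subgroup `S` with `C_M(S) = 1` and
  `r, r' ∣ |S|`; if the `r`-subgroups of `M` are commutative, `r` odd, then `|S|` has the same `r`-part as `|M|`.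
-/

set_option autoImplicit false

namespace Cfsg.Agent.H92.TD

open Subgroup

/-- S4319, nilpotent fixed points -/
def NilFix : Prop :=
  ∀ (A G : Type) [Group A] [Finite A] [Group G] [Finite G] [MulDistribMulAction A G],
    (Nat.card G).Coprime (Nat.card A) → Group.IsNilpotent ↥(FixedPoints.subgroup A G) → Group.IsSolvable G

/-- S1942 -/
def Gross : Prop :=
  ∀ (G : Type) [Group G] [Finite G] [IsSimpleGroup G], ¬ IsMulCommutative G → ∀ (p : ℕ) [Fact p.Prime],
    p ≠ 2 → p ∣ Nat.card G → ∀ (P : Sylow p G) (α : MulAut G), (∃ j : ℕ, orderOf α = p ^ j) →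
    (∀ x ∈ (P : Subgroup G), α x = x) → ∃ g : G, ∀ x : G, α x = g * x * g⁻¹

variable {M : Type} [Group M] [Finite M]

/-- an element of prime order with commutative centralizer meets every normal subgroup -/
theorem dvd_of_normal (hN : NilFix) (hrad : ∀ A : Subgroup M, A.Normal → Group.IsSolvable A → A = ⊥) {r : ℕ}
    (hr : r.Prime) {x : M} (hx : orderOf x = r) (hc : ∀ y z : M, y * x = x * y → z * x = x * z → y * z = z * y)
    {Y : Subgroup M} (hY : Y.Normal) (hY0 : Y ≠ ⊥) : r ∣ Nat.card Y := by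
  by_contra hnd
  apply hY0
  apply hrad Y hY
  let φ : zpowers x →* MulAut Y := (MulAut.conjNormal (H := Y)).comp (zpowers x).subtype
  let _ : MulDistribMulAction (zpowers x) Y := MulDistribMulAction.compHom Y φ
  refine hN (zpowers x) Y ?_ ?_
  · rw [Nat.card_zpowers, hx]
    exact ((Nat.Prime.coprime_iff_not_dvd hr).2 hnd).symm
  · have key : ∀ a : FixedPoints.subgroup (zpowers x) Y, ((a : Y) : M) * x = x * ((a : Y) : M) := by
      intro a
      have h3 : φ ⟨x, mem_zpowers x⟩ (a : Y) = (a : Y) := a.2 ⟨x, mem_zpowers x⟩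
      have h4 : x * ((a : Y) : M) * x⁻¹ = ((a : Y) : M) := by
        have := congrArg Subtype.val h3
        simpa [φ, MulAut.conjNormal_apply] using this
      exact (mul_inv_eq_iff_eq_mul.1 h4).symm
    have hcom : ∀ a b : FixedPoints.subgroup (zpowers x) Y, a * b = b * a := by
      intro a b
      exact Subtype.ext (Subtype.ext (hc _ _ (key a) (key b)))
    let _ : CommGroup ↥(FixedPoints.subgroup (zpowers x) Y) := { mul_comm := hcom }
    exact CommGroup.isNilpotent

theorem exists_soc (hN : NilFix) (hrad : ∀ A : Subgroup M, A.Normal → Group.IsSolvable A → A = ⊥) {r s : ℕ}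
    (hr : r.Prime) (hs : s.Prime) {x y : M} (hx : orderOf x = r) (hy : orderOf y = s)
    (hcx : ∀ a b : M, a * x = x * a → b * x = x * b → a * b = b * a)
    (hcy : ∀ a b : M, a * y = y * a → b * y = y * b → a * b = b * a)
    (hno : ∀ a b : M, orderOf a = r → orderOf b = s → ¬ Commute a b) :
    ∃ S : Subgroup M, S.Normal ∧ IsSimpleGroup S ∧ ¬ IsMulCommutative S ∧ centralizer (S : Set M) = ⊥ ∧
      r ∣ Nat.card S ∧ s ∣ Nat.card S := by
  have hne : (⊤ : Subgroup M) ≠ ⊥ := by
    intro h
    have h1 : x ∈ (⊥ : Subgroup M) := h ▸ mem_top x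
    rw [mem_bot] at h1
    rw [h1, orderOf_one] at hx
    exact hr.one_lt.ne hx
  obtain ⟨X, ⟨hXn, hX0⟩, hmin⟩ := (wellFounded_lt (α := Subgroup M)).has_min
    {A : Subgroup M | A.Normal ∧ A ≠ ⊥} ⟨⊤, inferInstance, hne⟩
  have hmin' : ∀ B : Subgroup M, B.Normal → B ≤ X → B = ⊥ ∨ B = X := by
    intro B hB hBX
    by_contra hcon
    push Not at hcon
    exact hmin B ⟨hB, hcon.1⟩ (lt_of_le_of_ne hBX hcon.2)
  have hXna : ¬ IsMulCommutative X := by
    intro h
    apply hX0
    apply hrad X hXn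
    let _ : CommGroup X := { mul_comm := h.1.1 }
    infer_instance
  have := Fact.mk hr
  have := Fact.mk hs
  obtain ⟨S₀, _, hS₀, k, hk, hna, ⟨e⟩⟩ := Cfsg.Agent.H671.Frame.minNormal_pi hXn hX0 hmin' hXna
  have hfin : Finite S₀ := by
    let g : S₀ → X := fun a => e.symm (fun _ => a)
    refine Finite.of_injective g fun a b h => ?_
    have h1 := e.symm.injective h
    exact congrFun h1 ⟨0, hk⟩
  have hcard : Nat.card X = Nat.card S₀ ^ k := by
    rw [Nat.card_congr e.toEquiv, Nat.card_fun, Nat.card_fin]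
  have hrX := dvd_of_normal hN hrad hr hx hcx hXn hX0
  have hsX := dvd_of_normal hN hrad hs hy hcy hXn hX0
  rw [hcard] at hrX hsX
  obtain ⟨a, ha⟩ := exists_prime_orderOf_dvd_card' r (hr.dvd_of_dvd_pow hrX)
  obtain ⟨b, hb⟩ := exists_prime_orderOf_dvd_card' s (hs.dvd_of_dvd_pow hsX)
  have hk1 : k = 1 := by
    by_contra hk1
    have hk2 : 1 < k := by omega
    let i : Fin k := ⟨0, hk⟩
    let j : Fin k := ⟨1, hk2⟩
    have hij : i ≠ j := by
      intro h
      have := congrArg Fin.val h
      simp [i, j] at this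
    let f : S₀ →* M := X.subtype.comp (e.symm.toMonoidHom.comp (MonoidHom.mulSingle (fun _ : Fin k => S₀) i))
    let g : S₀ →* M := X.subtype.comp (e.symm.toMonoidHom.comp (MonoidHom.mulSingle (fun _ : Fin k => S₀) j))
    have hf : Function.Injective f := X.subtype_injective.comp (e.symm.injective.comp (Pi.mulSingle_injective (M := fun _ : Fin k => S₀) i))
    have hg : Function.Injective g := X.subtype_injective.comp (e.symm.injective.comp (Pi.mulSingle_injective (M := fun _ : Fin k => S₀) j))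
    refine hno (f a) (g b) ((orderOf_injective f hf a).trans ha) ((orderOf_injective g hg b).trans hb) ?_
    have h1 : Commute (Pi.mulSingle (M := fun _ : Fin k => S₀) i a) (Pi.mulSingle (M := fun _ : Fin k => S₀) j b) :=
      Pi.mulSingle_commute (f := fun _ : Fin k => S₀) hij a b
    exact (h1.map e.symm.toMonoidHom).map X.subtype
  subst hk1
  have hXs : IsSimpleGroup X := by
    have e1 : (Fin 1 → S₀) ≃* S₀ := MulEquiv.funUnique (Fin 1) S₀
    exact (e.trans e1).isSimpleGroup
  have hC : centralizer (X : Set M) = ⊥ := by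
    by_contra h0
    have hCn : (centralizer (X : Set M)).Normal := inferInstance
    have h1 := dvd_of_normal hN hrad hr hx hcx hCn h0
    obtain ⟨c, hc⟩ := exists_prime_orderOf_dvd_card' r h1
    obtain ⟨d, hd⟩ := exists_prime_orderOf_dvd_card' s (hcard ▸ hsX)
    refine hno (c : M) (d : M) (by rw [Subgroup.orderOf_coe, hc]) (by rw [Subgroup.orderOf_coe, hd]) ?_
    exact (mem_centralizer_iff.1 c.2 d d.2).symm
  exact ⟨X, hXn, hXs, hXna, hC, by rw [hcard]; exact hrX, by rw [hcard]; exact hsX⟩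

/-- **The full `r`-part.** -/
theorem pow_dvd_soc (hG : Gross) {S : Subgroup M} (hSn : S.Normal) (hSs : IsSimpleGroup S)
    (hSna : ¬ IsMulCommutative S) (hC : centralizer (S : Set M) = ⊥) {r : ℕ} (hr : r.Prime) (hr2 : r ≠ 2)
    (hrS : r ∣ Nat.card S) (hcomm : ∀ E : Subgroup M, IsPGroup r E → ∀ a ∈ E, ∀ b ∈ E, a * b = b * a) {n : ℕ}
    (hn : r ^ n ∣ Nat.card M) : r ^ n ∣ Nat.card S := by
  have := Fact.mk hr
  let Q : Sylow r S := Classical.arbitrary _
  have hQ : IsPGroup r ((Q : Subgroup S).map S.subtype) := Q.isPGroup'.map _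
  obtain ⟨P, hP⟩ := hQ.exists_le_sylow
  have hPS : (P : Subgroup M) ≤ S := by
    intro g hg
    obtain ⟨j, hj⟩ := (IsPGroup.iff_orderOf.1 P.isPGroup') ⟨g, hg⟩
    rw [Subgroup.orderOf_mk] at hj
    obtain ⟨s, hs⟩ := hG S hSna r hr2 hrS Q (MulAut.conjNormal g) (by
      have h1 : orderOf (MulAut.conjNormal (H := S) g) ∣ r ^ j := by
        rw [← hj]; exact orderOf_map_dvd _ _
      obtain ⟨i, -, hi⟩ := (Nat.dvd_prime_pow hr).1 h1
      exact ⟨i, hi⟩) (by
      intro y hy
      apply Subtype.ext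
      rw [MulAut.conjNormal_apply]
      have h1 : (y : M) ∈ (P : Subgroup M) := hP ⟨y, hy, rfl⟩
      have h2 := hcomm P P.isPGroup' g hg y h1
      rw [h2, mul_inv_cancel_right])
    have h1 : (s : M)⁻¹ * g ∈ centralizer (S : Set M) := by
      rw [mem_centralizer_iff]
      intro y hy
      have h2 := congrArg Subtype.val (hs ⟨y, hy⟩)
      rw [MulAut.conjNormal_apply] at h2
      have h3 : g * y * g⁻¹ = s * y * (s : M)⁻¹ := h2
      have h4 : (s : M)⁻¹ * (g * y * g⁻¹) * g = (s : M)⁻¹ * (s * y * (s : M)⁻¹) * g := by rw [h3]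
      calc y * ((s : M)⁻¹ * g) = (s : M)⁻¹ * (s * y * (s : M)⁻¹) * g := by group
        _ = (s : M)⁻¹ * (g * y * g⁻¹) * g := h4.symm
        _ = _ := by group
    rw [hC, mem_bot] at h1
    have h2 : g = s := (inv_mul_eq_one.1 h1).symm
    rw [h2]
    exact s.2
  have h1 : r ^ n ∣ Nat.card P := by
    obtain ⟨E, hE⟩ := Sylow.exists_subgroup_card_pow_prime r hn
    have hEp : IsPGroup r E := IsPGroup.of_card hE
    obtain ⟨P', hP'⟩ := hEp.exists_le_sylow
    have h2 := card_dvd_of_le hP'
    rw [hE] at h2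
    have h3 : Nat.card P' = Nat.card P := Nat.card_congr (P'.equiv P).toEquiv
    exact h3 ▸ h2
  exact h1.trans (card_dvd_of_le hPS)

end Cfsg.Agent.H92.TD
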