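import Cfsg.Agent.H563.KG.Wt
import Cfsg.Agent.H92.TD.Reg
import Cfsg.Agent.H92.TD.Soc

/-!
# No solvable normal subgroups (helper92, S2499)

* `comm_of_lt` : an element of prime order `r > n` centralizes the abelian `p'`-subgroups of `GL_n` it normalizes;
* `pow_dvd_of` : two non-conjugate subgroups of order `r` and an element of order `r ^ a` : `r ^ (a + 1) ∣ |M|`;
* `no_solvable` : a subgroup of a group `T` of degree 8 with elements of two classes of tori has no normal `t`-subgroup.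
-/

set_option autoImplicit false

namespace Cfsg.Agent.H92.TD

open Subgroup Module Cfsg.Agent.H912.Bd Cfsg.Agent.H290.ElWt Cfsg.Agent.H563.KG

/-! ### weights -/

section Wt

variable {F : Type*} [Field F] {ι : Type*} [Fintype ι] [DecidableEq ι] {G : Type*} [Group G] [Finite G]

/-- **Elements of large prime order centralize abelian `p'`-subgroups.** -/
theorem comm_of_lt {p : ℕ} [CharP F p] {τ : G →* GL ι F} (hτ : Function.Injective τ) {A : Subgroup G} [A.Normal]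
    (hA : ∀ a ∈ A, ∀ b ∈ A, a * b = b * a) (hp : ¬ p ∣ Nat.card A) {x : G} {r : ℕ} (hr : r.Prime)
    (hx : orderOf x = r) (hlt : Fintype.card ι < r) {a : G} (ha : a ∈ A) : a * x = x * a := by
  have := Fact.mk hr
  have : CharP (AlgebraicClosure F) p := charP_of_injective_algebraMap (algebraMap F _).injective p
  have hN : ((Nat.card A : ℕ) : AlgebraicClosure F) ≠ 0 := by
    intro h
    exact hp ((CharP.cast_eq_zero_iff (AlgebraicClosure F) p _).1 h)
  have hAN : ∀ a ∈ A, a ^ Nat.card A = 1 := fun a ha => by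
    have := pow_card_eq_one' (x := (⟨a, ha⟩ : A))
    exact congrArg Subtype.val this
  obtain ⟨hfin, hle⟩ := finite_wts (cl τ) hA hN hAN
  have hn : finrank (AlgebraicClosure F) (ι → AlgebraicClosure F) = Fintype.card ι := by simp
  rw [hn] at hle
  have hfix : ∀ χ : Wts (cl τ) A, x⁻¹ • χ = χ := by
    intro χ
    have h1 : Nat.card (MulAction.orbit (zpowers x) χ) ∣ Nat.card (zpowers x) := by
      rw [Nat.card_coe_set_eq, ← MulAction.index_stabilizer]
      exact Subgroup.index_dvd_card _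
    rw [Nat.card_zpowers, hx] at h1
    have h2 : Nat.card (MulAction.orbit (zpowers x) χ) ≤ Nat.card (Wts (cl τ) A) :=
      Nat.card_le_card_of_injective _ Subtype.val_injective
    rcases (Nat.dvd_prime hr).1 h1 with h3 | h3
    · obtain ⟨c, hc⟩ := Nat.card_eq_one_iff_exists.1 h3
      have h4 := hc ⟨χ, MulAction.mem_orbit_self χ⟩
      have h5 := hc ⟨x⁻¹ • χ, ⟨⟨x⁻¹, inv_mem (mem_zpowers x)⟩, rfl⟩⟩
      exact congrArg Subtype.val (h5.trans h4.symm)
    · omega
  have hxa : x * a * x⁻¹ ∈ A := (inferInstance : A.Normal).conj_mem a ha x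
  have hb : a⁻¹ * (x * a * x⁻¹) ∈ A := mul_mem (inv_mem ha) hxa
  have key : (⟨a⁻¹ * (x * a * x⁻¹), hb⟩ : A) = ⟨a, ha⟩⁻¹ * ⟨x * a * x⁻¹, hxa⟩ := rfl
  have h6 : cl τ (a⁻¹ * (x * a * x⁻¹)) = 1 := by
    by_contra hne
    obtain ⟨χ, hχ, hχb⟩ := exists_wt (cl τ) hA hN hAN (c := ⟨a⁻¹ * (x * a * x⁻¹), hb⟩) hne
    apply hχb
    rw [key, wt_mul (cl τ) hχ]
    have h7 := congrArg Subtype.val (hfix ⟨χ, hχ, ⟨_, hχb⟩⟩)
    have h8 : tw A x⁻¹ χ = χ := h7
    have h9 := congrFun h8 ⟨a, ha⟩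
    have h10 : χ ⟨x * a * x⁻¹, hxa⟩ = χ ⟨a, ha⟩ := by
      rw [← h9]
      exact congrArg χ (Subtype.ext (by simp))
    rw [h10, ← wt_mul (cl τ) hχ, inv_mul_cancel, wt_one (cl τ) hχ]
  have h11 := cl_injective hτ h6
  have h12 : a = x * a * x⁻¹ := inv_mul_eq_one.1 h11
  rw [eq_mul_inv_iff_mul_eq] at h12
  exact h12

end Wt

/-! ### Sylow subgroups -/

section Syl

variable {M : Type*} [Group M] [Finite M]

theorem mem_zpowers_cyc {A : Type*} [Group A] [Finite A] [IsCyclic A] {x z : A}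
    (h : orderOf x ∣ orderOf z) : x ∈ Subgroup.zpowers z := by
  classical
  have := Fintype.ofFinite A
  have h1 := IsCyclic.card_pow_eq_one_le (α := A) (n := orderOf z) (orderOf_pos z)
  have h2 : (Finset.univ.filter fun a : A => a ∈ Subgroup.zpowers z) ⊆
      (Finset.univ.filter fun a : A => a ^ orderOf z = 1) := by
    intro a ha
    simp only [Finset.mem_filter, Finset.mem_univ, true_and] at ha ⊢
    obtain ⟨k, rfl⟩ := Subgroup.mem_zpowers_iff.1 ha
    rw [← zpow_natCast, ← zpow_mul, mul_comm, zpow_mul, zpow_natCast, pow_orderOf_eq_one, one_zpow]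
  have h3 : (Finset.univ.filter fun a : A => a ∈ Subgroup.zpowers z).card = orderOf z := by
    rw [← Nat.card_zpowers, Nat.card_eq_fintype_card, Fintype.card_subtype]
  have h4 := Finset.eq_of_subset_of_card_le h2 (by rw [h3]; exact h1)
  have h5 : x ∈ (Finset.univ.filter fun a : A => a ^ orderOf z = 1) := by
    simp only [Finset.mem_filter, Finset.mem_univ, true_and]
    exact orderOf_dvd_iff_pow_eq_one.1 h
  rw [← h4] at h5
  simpa using h5

theorem exists_conj_sylow {r : ℕ} [Fact r.Prime] (P : Sylow r M) {y : M} {b : ℕ} (hy : orderOf y = r ^ b) :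
    ∃ g : M, g * y * g⁻¹ ∈ (P : Subgroup M) := by
  have h1 : IsPGroup r (zpowers y) := IsPGroup.of_card (n := b) (by rw [Nat.card_zpowers, hy])
  obtain ⟨Q, hQ⟩ := h1.exists_le_sylow
  obtain ⟨g, rfl⟩ := MulAction.exists_smul_eq M Q P
  refine ⟨g, ?_⟩
  rw [Sylow.coe_subgroup_smul, mem_pointwise_smul_iff_inv_smul_mem]
  have : (MulAut.conj g)⁻¹ • (g * y * g⁻¹) = y := by
    simp [MulAut.smul_def]
    group
  rw [this]
  exact hQ (mem_zpowers y)

/-- **Two classes of subgroups of order `r`.** -/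
theorem pow_dvd_of {r a : ℕ} (hr : r.Prime) {x h t : M} (hx : orderOf x = r) (hh : orderOf h = r)
    (ht : orderOf t = r ^ a) (hnc : ∀ g : M, g * h * g⁻¹ ∉ zpowers x) : r ^ (a + 1) ∣ Nat.card M := by
  have := Fact.mk hr
  let P : Sylow r M := Classical.arbitrary _
  obtain ⟨n, hn⟩ := IsPGroup.iff_card.1 P.isPGroup'
  obtain ⟨g₁, h1⟩ := exists_conj_sylow P (y := x) (b := 1) (by rw [hx, pow_one])
  obtain ⟨g₂, h2⟩ := exists_conj_sylow P (y := h) (b := 1) (by rw [hh, pow_one])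
  obtain ⟨g₃, h3⟩ := exists_conj_sylow P (y := t) ht
  have hoc : ∀ g y : M, orderOf (g * y * g⁻¹) = orderOf y := fun g y =>
    orderOf_injective (MulAut.conj g).toMonoidHom (MulAut.conj g).injective y
  have h4 : orderOf (⟨g₃ * t * g₃⁻¹, h3⟩ : (P : Subgroup M)) = r ^ a := by rw [Subgroup.orderOf_mk, hoc, ht]
  have h5 : r ^ a ∣ r ^ n := by rw [← hn, ← h4]; exact orderOf_dvd_natCard _
  have h6 : a ≤ n := (Nat.pow_dvd_pow_iff_le_right hr.one_lt).1 h5
  rcases Nat.lt_or_ge a n with h7 | h7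
  · exact (pow_dvd_pow r h7).trans (hn ▸ Subgroup.card_subgroup_dvd_card _)
  · exfalso
    obtain rfl : a = n := le_antisymm h6 h7
    have hcyc : IsCyclic (P : Subgroup M) := isCyclic_of_orderOf_eq_card _ (h4.trans hn.symm)
    have h8 : (⟨g₂ * h * g₂⁻¹, h2⟩ : (P : Subgroup M)) ∈ zpowers (⟨g₁ * x * g₁⁻¹, h1⟩ : (P : Subgroup M)) := by
      apply mem_zpowers_cyc
      rw [Subgroup.orderOf_mk, Subgroup.orderOf_mk, hoc, hoc, hx, hh]
    obtain ⟨i, hi⟩ := mem_zpowers_iff.1 h8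
    have h9 : (g₁ * x * g₁⁻¹) ^ i = g₂ * h * g₂⁻¹ := congrArg Subtype.val hi
    rw [conj_zpow] at h9
    apply hnc (g₁⁻¹ * g₂)
    rw [mem_zpowers_iff]
    refine ⟨i, ?_⟩
    calc x ^ i = g₁⁻¹ * (g₁ * x ^ i * g₁⁻¹) * g₁ := by group
      _ = g₁⁻¹ * (g₂ * h * g₂⁻¹) * g₁ := by rw [h9]
      _ = _ := by group

end Syl

/-! ### the classes of tori -/

/-- the data of a class of tori of exponent `N`, for the prime `r` -/
structure CF (T : Type*) [Group T] (p r N a : ℕ) : Prop where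
  pr : r.Prime
  seven : 7 ≤ r
  reg : ∃ x : T, RegE T 4 N r x
  sing : ∃ x y : T, orderOf x = r ∧ orderOf y = p ∧ Commute x y
  top : ∃ x : T, orderOf x = r ^ a
  one : 1 ≤ a
  dvd : r ∣ N
  hpN : ¬ p ∣ N
  comm : ∀ E : Subgroup T, IsPGroup r E → ∀ x ∈ E, ∀ y ∈ E, x * y = y * x

/-- `K` meets all classes of `r`-elements -/
def Meets {T : Type*} [Group T] (K : Subgroup T) (r : ℕ) : Prop :=
  ∀ g : T, (∃ b, 1 ≤ b ∧ orderOf g = r ^ b) → ∃ c : T, c * g * c⁻¹ ∈ K

section Rad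

variable {T : Type} [Group T] [Finite T] {p r N a : ℕ} (F : CF T p r N a) {K : Subgroup T} (hK : Meets K r)

theorem RegE.conj {T : Type*} [Group T] {l N r : ℕ} {x : T} (h : RegE T l N r x) (c : T) :
    RegE T l N r (c * x * c⁻¹) where
  ord := by
    rw [← h.ord]
    exact orderOf_injective (MulAut.conj c).toMonoidHom (MulAut.conj c).injective x
  pow := by
    intro y hy
    have h1 : (c⁻¹ * y * c) * x = x * (c⁻¹ * y * c) := by
      calc (c⁻¹ * y * c) * x = c⁻¹ * (y * (c * x * c⁻¹)) * c := by group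
        _ = c⁻¹ * (c * x * c⁻¹ * y) * c := by rw [hy]
        _ = _ := by group
    have h2 := h.pow _ h1
    have h3 := conj_pow (a := c⁻¹) (b := y) (i := N)
    rw [inv_inv, h2] at h3
    calc y ^ N = c * (c⁻¹ * y ^ N * c) * c⁻¹ := by group
      _ = 1 := by rw [← h3]; group
  comm := by
    intro y z hy hz
    have key : ∀ y, y * (c * x * c⁻¹) = c * x * c⁻¹ * y → (c⁻¹ * y * c) * x = x * (c⁻¹ * y * c) := by
      intro y hy
      calc (c⁻¹ * y * c) * x = c⁻¹ * (y * (c * x * c⁻¹)) * c := by group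
        _ = c⁻¹ * (c * x * c⁻¹ * y) * c := by rw [hy]
        _ = _ := by group
    have h2 := h.comm _ _ (key y hy) (key z hz)
    calc y * z = c * ((c⁻¹ * y * c) * (c⁻¹ * z * c)) * c⁻¹ := by group
      _ = c * ((c⁻¹ * z * c) * (c⁻¹ * y * c)) * c⁻¹ := by rw [h2]
      _ = _ := by group
  tors := by
    intro s hs
    refine le_trans (le_of_eq ?_) (h.tors s hs)
    refine Nat.card_congr ((MulAut.conj c).symm.toEquiv.subtypeEquiv fun y => ?_)
    show (y * (c * x * c⁻¹) = c * x * c⁻¹ * y ∧ y ^ s = 1) ↔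
      ((c⁻¹ * y * c) * x = x * (c⁻¹ * y * c) ∧ (c⁻¹ * y * c) ^ s = 1)
    have h0 := conj_pow (a := c⁻¹) (b := y) (i := s)
    rw [inv_inv] at h0
    rw [h0]
    constructor
    · rintro ⟨h1, h2⟩
      refine ⟨?_, by rw [h2]; group⟩
      calc (c⁻¹ * y * c) * x = c⁻¹ * (y * (c * x * c⁻¹)) * c := by group
        _ = c⁻¹ * (c * x * c⁻¹ * y) * c := by rw [h1]
        _ = _ := by group
    · rintro ⟨h1, h2⟩
      refine ⟨?_, ?_⟩
      · calc y * (c * x * c⁻¹) = c * ((c⁻¹ * y * c) * x) * c⁻¹ := by group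
          _ = c * (x * (c⁻¹ * y * c)) * c⁻¹ := by rw [h1]
          _ = _ := by group
      · calc y ^ s = c * (c⁻¹ * y ^ s * c) * c⁻¹ := by group
          _ = 1 := by rw [h2]; group

include F hK

theorem exists_regK : ∃ x ∈ K, RegE T 4 N r x := by
  obtain ⟨x, hx⟩ := F.reg
  obtain ⟨c, hc⟩ := hK x ⟨1, le_rfl, by rw [hx.ord, pow_one]⟩
  exact ⟨_, hc, hx.conj c⟩

/-- **The `r`-part of `|K|`.** -/
theorem pow_dvd_K : r ^ (a + 1) ∣ Nat.card K := by
  have := Fact.mk F.pr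
  obtain ⟨x, hxK, hx⟩ := exists_regK F hK
  obtain ⟨h, y, hh, hy, hc⟩ := F.sing
  obtain ⟨c, hcK⟩ := hK h ⟨1, le_rfl, by rw [hh, pow_one]⟩
  obtain ⟨t, ht⟩ := F.top
  obtain ⟨d, hdK⟩ := hK t ⟨a, F.one, ht⟩
  have hoc : ∀ g y : T, orderOf (g * y * g⁻¹) = orderOf y := fun g y =>
    orderOf_injective (MulAut.conj g).toMonoidHom (MulAut.conj g).injective y
  refine pow_dvd_of F.pr (x := ⟨x, hxK⟩) (h := ⟨_, hcK⟩) (t := ⟨_, hdK⟩) (by rw [Subgroup.orderOf_mk, hx.ord])
    (by rw [Subgroup.orderOf_mk, hoc, hh]) (by rw [Subgroup.orderOf_mk, hoc, ht]) fun g hg => ?_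
  obtain ⟨i, hi⟩ := mem_zpowers_iff.1 hg
  have h1 : x ^ i = (g : T) * (c * h * c⁻¹) * (g : T)⁻¹ := congrArg Subtype.val hi
  -- `x` is a power of the conjugate of `h`
  have h2 : x ^ i = (g * c : T) * h * (g * c : T)⁻¹ := by rw [h1]; group
  have h3 : (g * c : T) * y * (g * c : T)⁻¹ * x ^ i = x ^ i * ((g * c : T) * y * (g * c : T)⁻¹) := by
    rw [h2]
    calc (g * c : T) * y * (g * c : T)⁻¹ * ((g * c : T) * h * (g * c : T)⁻¹) =
        (g * c : T) * (y * h) * (g * c : T)⁻¹ := by group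
      _ = (g * c : T) * (h * y) * (g * c : T)⁻¹ := by rw [hc.eq]
      _ = _ := by group
  have h4 : orderOf (x ^ i) = r := by rw [h2, hoc, hh]
  obtain ⟨j, hj⟩ : ∃ j : ℤ, (x ^ i) ^ j = x := by
    have h5 : zpowers (x ^ i) = zpowers x := by
      apply Subgroup.eq_of_le_of_card_ge
      · rw [zpowers_le]; exact zpow_mem (mem_zpowers x) i
      · rw [Nat.card_zpowers, Nat.card_zpowers, h4, hx.ord]
    exact mem_zpowers_iff.1 (h5 ▸ mem_zpowers x)
  have h6 : ((g * c : T) * y * (g * c : T)⁻¹) * x = x * ((g * c : T) * y * (g * c : T)⁻¹) := by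
    have h7 : Commute ((g * c : T) * y * (g * c : T)⁻¹) (x ^ i) := h3
    have h8 := h7.zpow_right j
    rw [hj] at h8
    exact h8
  have h7 := hx.pow _ h6
  have h8 := orderOf_dvd_of_pow_eq_one h7
  rw [hoc, hy] at h8
  exact F.hpN h8

end Rad

/-! ### two classes -/

/-- two classes of tori of coprime exponents -/
structure Two (T : Type*) [Group T] (p r N a s N' b : ℕ) : Prop where
  F : CF T p r N a
  F' : CF T p s N' b
  big : 8 < r ∨ 8 < s
  cop : N.Coprime N'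
  na : ∀ t, t.Prime → t ≠ 3 → t ∣ N → ∀ x y : T, orderOf x = t → orderOf y = s → ¬ Commute x y
  na' : ∀ t, t.Prime → t ≠ 3 → t ∣ N' → ∀ x y : T, orderOf x = t → orderOf y = r → ¬ Commute x y

theorem Two.symm {T : Type*} [Group T] {p r N a s N' b : ℕ} (h : Two T p r N a s N' b) : Two T p s N' b r N a where
  F := h.F'
  F' := h.F
  big := h.big.symm
  cop := h.cop.symm
  na := h.na'
  na' := h.na

section Sol

variable {T : Type} [Group T] [Finite T] {p r N a s N' b : ℕ} {K : Subgroup T}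
  {k : Type*} [Field k] {ι : Type*} [Fintype ι] [DecidableEq ι] [CharP k p] {τ : T →* GL ι k}
  (hτ : Function.Injective τ) (h8 : Fintype.card ι = 8)

theorem fpf_of {l : ℕ} {x : K} (hx : RegE T l N r (x : T)) {t : ℕ} (ht : t.Prime) (htN : ¬ t ∣ N) {B : Subgroup K}
    (hBt : ∀ a ∈ B, a ^ t = 1) : ∀ a ∈ B, x * a = a * x → a = 1 := by
  intro a ha h
  have h1 := hx.pow (a : T) (congrArg Subtype.val h).symm
  have h2 : orderOf (a : T) ∣ N := orderOf_dvd_of_pow_eq_one h1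
  have h3 : orderOf (a : T) ∣ t := by
    rw [Subgroup.orderOf_coe]
    exact orderOf_dvd_of_pow_eq_one (hBt a ha)
  rcases (Nat.dvd_prime ht).1 h3 with h4 | h4
  · rw [Subgroup.orderOf_coe] at h4
    exact orderOf_eq_one_iff.1 h4
  · rw [h4] at h2
    exact absurd h2 htN

include hτ h8

/-- some element of order `r` commutes with an element of order `t` -/
theorem exists_comm (F : CF T p r N a) (hK : Meets K r) {t : ℕ} (ht : t.Prime) {B : Subgroup K} [B.Normal]
    (hB0 : B ≠ ⊥) (hBc : ∀ a ∈ B, ∀ b ∈ B, a * b = b * a) (hBt : ∀ a ∈ B, a ^ t = 1) (hpB : ¬ p ∣ Nat.card B) :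
    ∃ x y : T, orderOf x = t ∧ orderOf y = r ∧ Commute x y := by
  by_contra hcon
  push Not at hcon
  apply hB0
  have h1 : r ^ 2 ∣ Nat.card K := (pow_dvd_pow r (by have := F.one; omega)).trans (pow_dvd_K F hK)
  refine eq_bot_of_dvd (τ := τ.comp K.subtype) (hτ.comp K.subtype_injective) hBc hpB h1 ?_ ?_
  · intro x hx hxr a ha hc
    by_contra ha1
    have h2 : orderOf x = r := (Nat.prime_dvd_prime_iff_eq hx F.pr).1 (hx.dvd_of_dvd_pow hxr)
    have h3 : orderOf a = t := by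
      rcases (Nat.dvd_prime ht).1 (orderOf_dvd_of_pow_eq_one (hBt a ha)) with h4 | h4
      · exact absurd (orderOf_eq_one_iff.1 h4) ha1
      · exact h4
    refine hcon (a : T) (x : T) (by rw [Subgroup.orderOf_coe, h3]) (by rw [Subgroup.orderOf_coe, h2]) ?_
    exact (congrArg Subtype.val hc).symm
  · rw [h8]
    have := F.seven
    nlinarith

theorem half (hT : Two T p r N a s N' b) (hK : Meets K r) (hK' : Meets K s) {t : ℕ} (ht : t.Prime) {B : Subgroup K}
    [B.Normal] (hB0 : B ≠ ⊥) (hBc : ∀ a ∈ B, ∀ b ∈ B, a * b = b * a) (hBt : ∀ a ∈ B, a ^ t = 1)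
    (hpB : ¬ p ∣ Nat.card B) (htN : t ∣ N) : False := by
  have htN' : ¬ t ∣ N' := fun h => by
    have h1 := Nat.dvd_gcd htN h
    rw [hT.cop] at h1
    exact ht.one_lt.ne' (Nat.dvd_one.1 h1)
  obtain ⟨u, v, hu, hv, huv⟩ := exists_comm hτ h8 hT.F' hK' ht hB0 hBc hBt hpB
  obtain rfl : t = 3 := by
    by_contra h3
    exact hT.na t ht h3 htN u v hu hv huv
  obtain ⟨y, hyK, hy⟩ := exists_regK hT.F' hK'
  obtain ⟨x, hxK, hx⟩ := exists_regK hT.F hK
  have fy := fpf_of (x := (⟨y, hyK⟩ : K)) hy ht htN' hBt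
  have hoy : orderOf (⟨y, hyK⟩ : K) = s := by rw [Subgroup.orderOf_mk, hy.ord]
  have hox : orderOf (⟨x, hxK⟩ : K) = r := by rw [Subgroup.orderOf_mk, hx.ord]
  have hinj : Function.Injective (τ.comp K.subtype) := hτ.comp K.subtype_injective
  have hs8 : s ≤ 8 := by
    by_contra hcon
    apply hB0
    rw [eq_bot_iff]
    intro a ha
    exact mem_bot.2 (fy a ha (comm_of_lt hinj hBc hpB hT.F'.pr hoy (by omega) ha).symm)
  have hr8 : 8 < r := by
    rcases hT.big with h | h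
    · exact h
    · omega
  have hcx : ∀ a ∈ B, a * ⟨x, hxK⟩ = ⟨x, hxK⟩ * a := fun a ha =>
    comm_of_lt hinj hBc hpB hT.F.pr hox (by omega) ha
  have hcard : Nat.card B ≤ 3 ^ 4 := by
    refine le_trans ?_ (hx.tors 3 Nat.prime_three)
    refine Nat.card_le_card_of_injective (fun a : B => (⟨((a : K) : T), congrArg Subtype.val (hcx a a.2),
      congrArg Subtype.val (hBt a a.2)⟩ : {y : T // y * x = x * y ∧ y ^ 3 = 1})) ?_
    intro a a' h
    have h' : ((a : K) : T) = ((a' : K) : T) := congrArg (fun z => z.1) h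
    exact Subtype.ext (Subtype.ext h')
  have hs7 : s = 7 := by
    have h1 := hT.F'.seven
    have h2 := hT.F'.pr
    interval_cases s
    · rfl
    · exact absurd h2 (by norm_num)
  have h1 := Cfsg.Agent.H563.KG.dvd_card_sub_one (A := B) hT.F'.pr hoy fy
  have hPt : IsPGroup 3 B := fun a => ⟨1, by rw [pow_one]; exact Subtype.ext (hBt a a.2)⟩
  have := Fact.mk Nat.prime_three
  obtain ⟨n, hn⟩ := IsPGroup.iff_card.1 hPt
  rw [hn, hs7] at h1
  rw [hn] at hcard
  have h2 : n ≤ 4 := (Nat.pow_le_pow_iff_right (by norm_num)).1 hcard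
  have h3 : n ≠ 0 := by
    rintro rfl
    rw [pow_zero, Subgroup.card_eq_one] at hn
    exact hB0 hn
  interval_cases n
  · exact h3 rfl
  · revert h1; decide
  · revert h1; decide
  · revert h1; decide
  · revert h1; decide

/-- **No solvable normal subgroups.** -/
theorem no_solvable [Fact p.Prime] (hT : Two T p r N a s N' b) (hK : Meets K r) (hK' : Meets K s)
    (hp : ∀ A : Subgroup T, IsPGroup p A → A ≠ ⊥ → ¬ K ≤ normalizer (A : Set T)) (A : Subgroup K) (hA : A.Normal)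
    (hs : Group.IsSolvable A) : A = ⊥ := by
  by_contra hne
  obtain ⟨t, ht, B, hBn, -, hB0, hBc, hBt⟩ := exists_elem' hA hs hne
  have := Fact.mk ht
  have hPt : IsPGroup t B := fun a => ⟨1, by rw [pow_one]; exact Subtype.ext (hBt a a.2)⟩
  by_cases htp : t = p
  · subst htp
    refine hp (B.map K.subtype) (hPt.map _) (fun h => hB0 ?_) ?_
    · rwa [Subgroup.map_eq_bot_iff_of_injective _ K.subtype_injective] at h
    · intro g hg
      rw [mem_normalizer_iff]
      intro y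
      constructor
      · rintro ⟨z, hz, rfl⟩
        exact ⟨⟨g, hg⟩ * z * ⟨g, hg⟩⁻¹, hBn.conj_mem z hz _, rfl⟩
      · rintro ⟨z, hz, hzy⟩
        refine ⟨⟨g, hg⟩⁻¹ * z * ⟨g, hg⟩, ?_, ?_⟩
        · have := hBn.conj_mem z hz (⟨g, hg⟩⁻¹)
          rwa [inv_inv] at this
        · show g⁻¹ * (z : T) * g = y
          have h1 : (z : T) = g * y * g⁻¹ := hzy
          rw [h1]; group
  · have hpB : ¬ p ∣ Nat.card B := by
      intro h
      obtain ⟨n, hn⟩ := IsPGroup.iff_card.1 hPt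
      rw [hn] at h
      exact htp ((Nat.prime_dvd_prime_iff_eq Fact.out ht).1 ((Fact.out : p.Prime).dvd_of_dvd_pow h)).symm
    by_cases h1 : t ∣ N
    · exact half hτ h8 hT hK hK' ht hB0 hBc hBt hpB h1
    by_cases h2 : t ∣ N'
    · exact half hτ h8 hT.symm hK' hK ht hB0 hBc hBt hpB h2
    obtain ⟨y, hyK, hy⟩ := exists_regK hT.F' hK'
    obtain ⟨x, hxK, hx⟩ := exists_regK hT.F hK
    have hrs : r ≠ s := by
      rintro rfl
      have h3 := Nat.dvd_gcd hT.F.dvd hT.F'.dvd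
      rw [hT.cop] at h3
      exact hT.F.pr.one_lt.ne' (Nat.dvd_one.1 h3)
    refine hB0 (eq_bot_of_free (τ := τ.comp K.subtype) (hτ.comp K.subtype_injective) hBc hpB hT.F.pr hT.F'.pr hrs
      (x := ⟨x, hxK⟩) (y := ⟨y, hyK⟩) (by rw [Subgroup.orderOf_mk, hx.ord]) (by rw [Subgroup.orderOf_mk, hy.ord])
      (fpf_of (x := (⟨x, hxK⟩ : K)) hx ht h1 hBt) (fpf_of (x := (⟨y, hyK⟩ : K)) hy ht h2 hBt) ?_)
    rw [h8]
    have := hT.F.seven
    have := hT.F'.seven
    nlinarith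

omit hτ h8 in
/-- **The socle.** -/
theorem exists_socK (hN : NilFix) (hG : Gross) (hT : Two T p r N a s N' b) (hK : Meets K r) (hK' : Meets K s)
    (hrad : ∀ A : Subgroup K, A.Normal → Group.IsSolvable A → A = ⊥) :
    ∃ S : Subgroup K, S.Normal ∧ IsSimpleGroup S ∧ ¬ IsMulCommutative S ∧
      ∀ r' N₁ a', CF T p r' N₁ a' → Meets K r' → r' ^ (a' + 1) ∣ Nat.card S := by
  obtain ⟨y, hyK, hy⟩ := exists_regK hT.F' hK'
  obtain ⟨x, hxK, hx⟩ := exists_regK hT.F hK
  have hr3 : r ≠ 3 := by have := hT.F.seven; omega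
  obtain ⟨S, hSn, hSs, hSna, hC, hrS, hsS⟩ := exists_soc hN hrad hT.F.pr hT.F'.pr (x := (⟨x, hxK⟩ : K))
    (y := (⟨y, hyK⟩ : K)) (by rw [Subgroup.orderOf_mk, hx.ord]) (by rw [Subgroup.orderOf_mk, hy.ord])
    (fun u v hu hv => Subtype.ext (hx.comm u v (congrArg Subtype.val hu) (congrArg Subtype.val hv)))
    (fun u v hu hv => Subtype.ext (hy.comm u v (congrArg Subtype.val hu) (congrArg Subtype.val hv)))
    (fun u v hu hv huv => hT.na r hT.F.pr hr3 hT.F.dvd u v (by rw [Subgroup.orderOf_coe, hu])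
      (by rw [Subgroup.orderOf_coe, hv]) (huv.map K.subtype))
  have hS0 : S ≠ ⊥ := by
    rintro rfl
    rw [Subgroup.card_bot] at hrS
    exact hT.F.pr.one_lt.ne' (Nat.dvd_one.1 hrS)
  refine ⟨S, hSn, hSs, hSna, fun r' N₁ a' hF hM => ?_⟩
  obtain ⟨z, hzK, hz⟩ := exists_regK hF hM
  have h1 : r' ∣ Nat.card S := dvd_of_normal hN hrad hF.pr (x := (⟨z, hzK⟩ : K))
    (by rw [Subgroup.orderOf_mk, hz.ord])
    (fun u v hu hv => Subtype.ext (hz.comm u v (congrArg Subtype.val hu) (congrArg Subtype.val hv))) hSn hS0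
  refine pow_dvd_soc hG hSn hSs hSna hC hF.pr (by have := hF.seven; omega) h1 (fun E hE u hu v hv => ?_)
    (pow_dvd_K hF hM)
  exact Subtype.ext (hF.comm (E.map K.subtype) (hE.map _) u ⟨u, hu, rfl⟩ v ⟨v, hv, rfl⟩)

end Sol

end Cfsg.Agent.H92.TD
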