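import Cfsg.Agent.H92.TD.Spec
import Cfsg.Agent.H92.TD.Rad
import Cfsg.Agent.H629.TorOrd
import Cfsg.Agent.H185.NFTd
import Cfsg.Agent.H392.TD.Nat8

/-!
# The classes of tori of `³D₄(q)` (helper92, S2499)

* `cf3`, `cf6` : the data `CF` for the primes `≠ 3` of `q² + q + 1` and `q² - q + 1`;
* `two_td` : the data `Two`;
* `no_solv` : a subgroup meeting the classes of `r`- and `s`-elements has no solvable normal subgroups.
-/

set_option autoImplicit false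
set_option linter.unusedSectionVars false

namespace Cfsg.Agent.H92.TD

open Subgroup Cfsg Cfsg.Lie Cfsg.Agent.H129 Cfsg.Agent.H129.WData Cfsg.Agent.H493.PGTorus

/-! ### arithmetic -/

section Arith

variable {q r a : ℕ}

theorem seven_three (hr : r.Prime) (h3 : r ≠ 3) (h : r ∣ q ^ 2 + q + 1) : 7 ≤ r := by
  have h0 := hr.two_le
  have h2 : r ≠ 2 := by
    rintro rfl
    exact absurd (odd_three h) (by decide)
  have h5 : r ≠ 5 := by
    rintro rfl
    have h1 : (q ^ 2 + q + 1) % 5 = 0 := Nat.mod_eq_zero_of_dvd h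
    have h4 : ∀ x < 5, (x ^ 2 + x + 1) % 5 ≠ 0 := by decide
    have h6 := h4 (q % 5) (Nat.mod_lt _ (by norm_num))
    rw [← h1] at h6
    exact h6 (by simp [Nat.add_mod, Nat.pow_mod])
  by_contra hcon
  have : r < 7 := by omega
  interval_cases r
  · exact h2 rfl
  · exact h3 rfl
  · exact absurd hr (by norm_num)
  · exact h5 rfl
  · exact absurd hr (by norm_num)

theorem six_shape (hq : 1 ≤ q) : q ^ 2 - q + 1 = (q - 1) ^ 2 + (q - 1) + 1 := by
  obtain ⟨c, rfl⟩ : ∃ c, q = c + 1 := ⟨q - 1, by omega⟩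
  rw [Nat.add_sub_cancel]
  have : (c + 1) ^ 2 = c ^ 2 + c + (c + 1) := by ring
  omega

theorem seven_six (hq : 1 ≤ q) (hr : r.Prime) (h3 : r ≠ 3) (h : r ∣ q ^ 2 - q + 1) : 7 ≤ r := by
  rw [six_shape hq] at h
  exact seven_three hr h3 h

theorem cop_three_six (hq : 1 ≤ q) : (q ^ 2 + q + 1).Coprime (q ^ 2 - q + 1) := by
  rw [Nat.coprime_iff_gcd_eq_one]
  by_contra hne
  obtain ⟨r, hr, hd⟩ := Nat.exists_prime_and_dvd hne
  exact cop_aux hr hq (hd.trans (Nat.gcd_dvd_left _ _)) (hd.trans (Nat.gcd_dvd_right _ _))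

theorem not_dvd_p3 {p : ℕ} (hp : p.Prime) (hpq : p ∣ q) : ¬ p ∣ q ^ 2 + q + 1 := fun h => not_dvd_q hp h hpq

theorem not_dvd_p6 {p : ℕ} (hp : p.Prime) (hq : 1 ≤ q) (hpq : p ∣ q) : ¬ p ∣ q ^ 2 - q + 1 :=
  fun h => not_dvd_q' hp hq h hpq

end Arith

/-! ### the data -/

theorem chX3 : ChainOK DataD4C.Am L3 := by decide +kernel
theorem thX3 : ∀ j, hd L3 (H168.TwCover.pi4 j) = M3 j := by decide +kernel
theorem chX6 : ChainOK DataD4C.Am L6 := by decide +kernel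
theorem thX6 : ∀ j, hd L6 (H168.TwCover.pi4 j) = M6 j := by decide +kernel

section Data

variable {K : Type} [Field K] [Fintype K] {q : ℕ} (hq : IsPrimePow q) (hK : Fintype.card K = q ^ 3) {p : ℕ}
  (hp : p.Prime) (hpq : p ∣ q) {r a : ℕ} (hr : r.Prime) (h3 : r ≠ 3) (ha : 1 ≤ a)

include hq hK hp hpq hr h3 ha

theorem cf3 (hN : r ^ a ∣ q ^ 2 + q + 1) : CF ↥(twistedD4 K q) p r (q ^ 2 + q + 1) a := by
  have hrN : r ∣ q ^ 2 + q + 1 := (dvd_pow_self r (by omega)).trans hN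
  have h7 := seven_three hr h3 hrN
  refine ⟨hr, h7, exists_reg3 hq hK hr (by omega) hrN, ?_, ?_, ha, hrN, not_dvd_p3 hp hpq,
    comm_sub hK hr (by omega) (not_dvd_q hr hrN)⟩
  · have h1 : (r : ℤ) ∣ Cfsg.Agent.H493.PGTorus.pv H493.PGCyc.c3 (q : ℤ) := by
      rw [H493.PGCyc.pv_c3]
      have := Int.natCast_dvd_natCast.2 hrN
      push_cast at this
      exact this
    exact H378.TwAdj.pairD_p hq hK H493.PGD4T.chainA_ok H493.PGD4T.hThA H493.PGD4T.eigA_3 (by decide) (by decide)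
      H493.PGD4T.fixA H493.PGD4T.vanA_3 hr hp h1 hpq
  · have h1 : ((r ^ a : ℕ) : ℤ) ∣ Cfsg.Agent.H493.PGTorus.pv H378.CycTab.c3 (q : ℤ) := by
      rw [H378.CycTab.pv3]
      have := Int.natCast_dvd_natCast.2 hN
      push_cast at this ⊢
      exact this
    have hcop : Nat.Coprime (r ^ a) q :=
      Nat.Coprime.pow_left _ ((Nat.Prime.coprime_iff_not_dvd hr).2 (not_dvd_q hr hrN))
    obtain ⟨x, y, -, hx, -⟩ := H629.TorOrd.td4_pair hq hK chX3 thX3 eig3 eig3 (pow_ne_zero a hr.ne_zero)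
      (pow_ne_zero a hr.ne_zero) hcop hcop h1 h1
    exact ⟨x, hx⟩

theorem cf6 (hN : r ^ a ∣ q ^ 2 - q + 1) : CF ↥(twistedD4 K q) p r (q ^ 2 - q + 1) a := by
  have hq1 : 1 ≤ q := hq.pos
  have hle : q ≤ q ^ 2 := Nat.le_self_pow (by norm_num) q
  have hrN : r ∣ q ^ 2 - q + 1 := (dvd_pow_self r (by omega)).trans hN
  have h7 := seven_six hq1 hr h3 hrN
  refine ⟨hr, h7, exists_reg6 hq hK hr (by omega) hrN, ?_, ?_, ha, hrN, not_dvd_p6 hp hq1 hpq,
    comm_sub hK hr (by omega) (not_dvd_q' hr hq1 hrN)⟩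
  · have h1 : (r : ℤ) ∣ Cfsg.Agent.H493.PGTorus.pv H493.PGCyc.c6 (q : ℤ) := by
      rw [H493.PGCyc.pv_c6]
      have := Int.natCast_dvd_natCast.2 hrN
      rw [Nat.cast_add, Nat.cast_sub hle] at this
      push_cast at this
      exact this
    exact H378.TwAdj.pairD_p hq hK H493.PGD4T.chainB_ok H493.PGD4T.hThB H493.PGD4T.eigB_6 (by decide) (by decide)
      H493.PGD4T.fixB H493.PGD4T.vanB_6 hr hp h1 hpq
  · have h1 : ((r ^ a : ℕ) : ℤ) ∣ Cfsg.Agent.H493.PGTorus.pv H378.CycTab.c6 (q : ℤ) := by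
      rw [H378.CycTab.pv6]
      have := Int.natCast_dvd_natCast.2 hN
      rw [Nat.cast_add, Nat.cast_sub hle] at this
      push_cast at this ⊢
      exact this
    have hcop : Nat.Coprime (r ^ a) q :=
      Nat.Coprime.pow_left _ ((Nat.Prime.coprime_iff_not_dvd hr).2 (not_dvd_q' hr hq1 hrN))
    obtain ⟨x, y, -, hx, -⟩ := H629.TorOrd.td4_pair hq hK chX6 thX6 eig6 eig6 (pow_ne_zero a hr.ne_zero)
      (pow_ne_zero a hr.ne_zero) hcop hcop h1 h1
    exact ⟨x, hx⟩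

theorem two_td (hN : r ^ a ∣ q ^ 2 + q + 1) {s b : ℕ} (hs : s.Prime) (hs3 : s ≠ 3) (hb : 1 ≤ b)
    (hN' : s ^ b ∣ q ^ 2 - q + 1) : Two ↥(twistedD4 K q) p r (q ^ 2 + q + 1) a s (q ^ 2 - q + 1) b := by
  have hq1 : 1 ≤ q := hq.pos
  have hrN : r ∣ q ^ 2 + q + 1 := (dvd_pow_self r (by omega)).trans hN
  have hsN : s ∣ q ^ 2 - q + 1 := (dvd_pow_self s (by omega)).trans hN'
  have h7 := seven_three hr h3 hrN
  have h7' := seven_six hq1 hs hs3 hsN
  refine ⟨cf3 hq hK hp hpq hr h3 ha hN, cf6 hq hK hp hpq hs hs3 hb hN', ?_, cop_three_six hq1, ?_, ?_⟩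
  · by_contra hcon
    have h1 : r = 7 := by
      have : r ≤ 8 := by omega
      interval_cases r
      · rfl
      · exact absurd hr (by norm_num)
    have h2 : s = 7 := by
      have : s ≤ 8 := by omega
      interval_cases s
      · rfl
      · exact absurd hs (by norm_num)
    subst h1
    subst h2
    exact cop_aux hr hq1 hrN hsN
  · intro t ht ht3 htN x y hx hy hc
    exact nonadj hq hK ht hs ht3 hs3 htN hsN hx hy hc
  · intro t ht ht3 htN x y hx hy hc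
    exact nonadj hq hK hr ht h3 ht3 hrN htN hy hx hc.symm

end Data

/-! ### no local subgroups -/

section Loc

variable {K : Type} [Field K] [Fintype K] {q : ℕ} (hq : IsPrimePow q) (hK : Fintype.card K = q ^ 3) {p : ℕ}
  [CharP K p] {r a : ℕ} (hr : r.Prime) (h3 : r ≠ 3)

include hq hK hr h3

theorem not_par (hpq : p ∣ q) (hN : ¬ r ^ (a + 1) ∣ q ^ 2 + q + 1) (hrN : r ∣ q ^ 2 + q + 1)
    {Y : Subgroup ↥(twistedD4 K q)}
    (hY : r ^ (a + 1) ∣ Nat.card Y) (A : Subgroup ↥(twistedD4 K q)) (hA : IsPGroup p A) (hA1 : A ≠ ⊥) :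
    ¬ Y ≤ normalizer (A : Set ↥(twistedD4 K q)) := by
  intro h
  have hq1 : 1 ≤ q := hq.pos
  obtain ⟨m, hm⟩ := H185.NFTd.card_dvd_par hq hK p A hA hA1 Y h
  have hp : p.Prime := CharP.char_is_prime K p
  have h1 := hY.trans hm
  have h2 : ¬ r ∣ p ^ m * ((q - 1) ^ 2 * (q ^ 3 + 1)) := by
    intro h4
    have e7 : q ^ 3 + 1 = (q ^ 2 - q + 1) * (q + 1) := by
      have e8 : q ^ 2 - q = q * (q - 1) := by rw [Nat.mul_sub, mul_one, pow_two]
      obtain ⟨c, rfl⟩ : ∃ c, q = c + 1 := ⟨q - 1, by omega⟩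
      rw [e8, Nat.add_sub_cancel]
      ring
    rcases (Nat.Prime.dvd_mul hr).1 h4 with h5 | h5
    · have h6 := (Nat.prime_dvd_prime_iff_eq hr hp).1 (hr.dvd_of_dvd_pow h5)
      rw [← h6] at hpq
      exact not_dvd_q hr hrN hpq
    rcases (Nat.Prime.dvd_mul hr).1 h5 with h6 | h6
    · exact h3 (three_of_pred hr hq1 hrN (hr.dvd_of_dvd_pow h6))
    rw [e7] at h6
    rcases (Nat.Prime.dvd_mul hr).1 h6 with h7 | h7
    · exact cop_aux hr hq1 hrN h7
    · exact not_dvd_succ hr hrN h7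
  have h4 : p ^ m * ((q - 1) ^ 2 * (q ^ 2 + q + 1) * (q ^ 3 + 1)) =
      p ^ m * ((q - 1) ^ 2 * (q ^ 3 + 1)) * (q ^ 2 + q + 1) := by ring
  rw [h4] at h1
  exact hN ((Nat.Coprime.pow_left _ ((Nat.Prime.coprime_iff_not_dvd hr).2 h2)).dvd_of_dvd_mul_left h1)

end Loc

section Solv

variable {K : Type} [Field K] [Fintype K] {q : ℕ} (hq : IsPrimePow q) (hK : Fintype.card K = q ^ 3)
  {r a s b : ℕ} (hr : r.Prime) (h3 : r ≠ 3) (ha : 1 ≤ a) (hN : r ^ a ∣ q ^ 2 + q + 1)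
  (hNa : ¬ r ^ (a + 1) ∣ q ^ 2 + q + 1) (hs : s.Prime) (hs3 : s ≠ 3) (hb : 1 ≤ b) (hN' : s ^ b ∣ q ^ 2 - q + 1)

include hq hK hr h3 ha hN hNa hs hs3 hb hN'

/-- **No solvable normal subgroups.** -/
theorem no_solv {Y : Subgroup ↥(twistedD4 K q)} (hY : Meets Y r) (hY' : Meets Y s) (A : Subgroup Y) (hA : A.Normal)
    (hsA : Group.IsSolvable A) : A = ⊥ := by
  obtain ⟨p, e, hp, he, hqe⟩ := id hq
  have hp := hp.nat_prime
  have := Fact.mk hp
  have hpq : p ∣ q := hqe ▸ dvd_pow_self p he.ne'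
  have : CharP K p := by
    obtain ⟨p', hp'⟩ := CharP.exists K
    obtain ⟨n, hn⟩ := FiniteField.card K p'
    have h1 : p' ∣ q := by
      have h2 : p' ∣ q ^ 3 := by rw [← hK, hn.2]; exact dvd_pow_self _ n.ne_zero
      exact hn.1.dvd_of_dvd_pow h2
    rw [← hqe] at h1
    rwa [← (Nat.prime_dvd_prime_iff_eq hn.1 hp).1 (hn.1.dvd_of_dvd_pow h1)]
  obtain ⟨ψ, hψ⟩ := H392.TD.exists_nat hq hK
  have hT := two_td hq hK hp hpq hr h3 ha hN hs hs3 hb hN'
  exact no_solvable (τ := (Subgroup.subtype _).comp ψ) (Subtype.val_injective.comp hψ) (by simp) hT hY hY'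
    (fun B hB hB1 => not_par hq hK hr h3 hpq hNa hT.F.dvd (pow_dvd_K hT.F hY) B hB hB1) A hA hsA

end Solv

end Cfsg.Agent.H92.TD
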